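import Cfsg.Agent.H977.PG.Hyp

/-!
# S4884, block G, polar types: `QElt` for the rows from `CoreB`, `CoreU`, `CaseU` (helper977)

* `qelt_Sp`, `qelt_O` (`qelt_odd`, `qelt_plus`, `qelt_minus`) from `CoreB`;
* `qelt_U` : `PSU_N(q)`, `q ∣ N(F)` case from `CaseU`, the other good cases from `CoreU`.
-/

set_option autoImplicit false
set_option linter.unusedSectionVars false

namespace Cfsg.Agent.H977.PG

open Cfsg Cfsg.Agent.H21.PG Cfsg.Agent.H439.CC Cfsg.Agent.TitsThree Cfsg.Agent.TitsThree.Siegel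
  Cfsg.Agent.TitsThree.SiegelGen Cfsg.Agent.TitsThree.WittFrame Cfsg.Agent.TitsThree.WBridge
open Cfsg.Agent.Nodes Cfsg.Agent.Nodes.WittRoot

universe u

/-- from isometries to elements of `G0` -/
theorem qelt_of_QE {F : Type*} [Field F] {V : Type*} [AddCommGroup V] [Module F V] {H : HForm F V} {q m : ℕ}
    [Fact q.Prime] {G0 : Subgroup (V ≃ₗ[F] V)} (h : QE H q m) (hG : ∀ x : V ≃ₗ[F] V, Isom H x → x ^ q = 1 → x ∈ G0) :
    QElt (TI H) G0.subtype q m := by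
  obtain ⟨x₁, x₂, h1, h2, h3, h4, h5, h6⟩ := h
  exact qelt_of G0.subtype ⟨x₁, hG x₁ h1 h3⟩ ⟨x₂, hG x₂ h2 h4⟩ (Subtype.ext h3) (Subtype.ext h4) (Subtype.ext h5) h6

/-- **`PSp`** -/
theorem qelt_Sp (hB : CoreB.{u, u}) {F : Type u} [Field F] [Finite F] {q m : ℕ} [Fact q.Prime] (hq2 : q ≠ 2)
    (h2 : (2 : F) ≠ 0) (hqF : (q : F) ≠ 0) (hm : 2 ≤ m) (h : q ∣ Nat.card (PSp m F)) :
    QElt (TI (SpIdent.form m F)) (SpIdent.isos (SpIdent.form m F)).subtype q m :=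
  qelt_of_QE (hB F (Fin m ⊕ Fin m → F) (SpIdent.form m F) q m hq2 (hypSp F m) (fun _ => rfl) h2 hqF hm
    (by rw [finrank_Sp]; omega) (exists_isom_Sp h)) fun _ hx _ => hx

section Unitary

open Cfsg.Agent.LieClassical.HermBasic Cfsg.Agent.LieClassical.HermSiegel Cfsg.Agent.LieClassical.SUBasic
open Cfsg.Agent.TitsThree.KSideU Cfsg.Agent.TitsThree.KSideUDesc

/-- **`PSU`**, all cases but the bad one (`d = 2 ^ a`, `d ≤ m < 2 d`, no `z`) -/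
theorem qelt_U (hC : CoreU.{u, u}) (hZ : CaseU.{u, u}) {F : Type u} [Field F] [Fintype F] {r N m q : ℕ}
    (hF : Fintype.card F = r ^ 2) [Fact q.Prime] (W : WFrame (PU hF N) m) (hq2 : q ≠ 2)
    (h2 : (2 : F) ≠ 0) (hqF : (q : F) ≠ 0) (hm : 1 ≤ m) (hN : N ≤ 2 * m + 1) (h : q ∣ Nat.card (PSU N F r))
    (hbad : (∃ z : F, z ^ q = 1 ∧ z ≠ 1 ∧ z * z ^ r = 1) ∨ (¬ ∃ a : ℕ, orderOf ((Nat.card F : ℕ) : ZMod q) = 2 ^ a) ∨
      2 * orderOf ((Nat.card F : ℕ) : ZMod q) ≤ m ∨ m < orderOf ((Nat.card F : ℕ) : ZMod q)) :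
    QElt (TI (HU hF N)) (IU F r N).subtype q m := by
  by_cases hz : ∃ z : F, z ^ q = 1 ∧ z ≠ 1 ∧ z * z ^ r = 1
  · obtain ⟨z, hz1, hz2, hz3⟩ := hz
    obtain ⟨x, h3, h4, h5, h6⟩ := hZ F (Fin N → F) (HU hF N) q m (hypU hF W) hq2 hm h2 hqF z hz1 hz2
      (by rw [HU_σ, mul_comm]; exact hz3)
    have h7 : x ∈ IU F r N := mem_IU_of hF h3 h5
    refine qelt_of (IU F r N).subtype ⟨x, h7⟩ ⟨x, h7⟩ (Subtype.ext h4) (Subtype.ext h4) rfl ?_
    have h8 : ({(IU F r N).subtype ⟨x, h7⟩, (IU F r N).subtype ⟨x, h7⟩} : Set ((Fin N → F) ≃ₗ[F] (Fin N → F))) = {x} :=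
      Set.pair_eq_singleton _
    rw [h8]
    exact h6
  · refine qelt_of_QE (hC F (Fin N → F) (HU hF N) q m hq2 (hypU hF W) h2 hqF hm (by rw [finrank_U]; exact hN)
      (exists_isom_U hF h) (hbad.resolve_left hz)) fun x hx hxq => mem_IU_of hF hx (det_eq_one hF hx hxq ?_)
    intro z hz1 hz2
    by_contra hz3
    exact hz ⟨z, hz1, hz3, hz2⟩

end Unitary

section Orthogonal

open QuadraticMap
open Cfsg.Agent.LieClassical Cfsg.Agent.LieClassical.OrthCore Cfsg.Agent.LieClassical.OrthTrans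
open Cfsg.Agent.LieClassical.OrthSimple Cfsg.Agent.LieClassical.OrthFinite
open Cfsg.Agent.LieClassical.OrthForms
open Cfsg.Agent.TitsThree.KSideO Cfsg.Agent.TitsThree.StdData
open Cfsg.Agent.Nodes.WittInst

/-- **`PΩ`** -/
theorem qelt_O (hB : CoreB.{u, u}) {ι : Type} [Fintype ι] [DecidableEq ι] {F : Type u} [Field F] [Finite F]
    {Q : QuadraticForm F (ι → F)} {q m : ℕ} [Fact q.Prime] (W : WFrame (PO Q) m) (hG : Good Q) (hq2 : q ≠ 2)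
    (h2 : (2 : F) ≠ 0) (hqF : (q : F) ≠ 0) (hm : 2 ≤ m) (hd : Module.finrank F (ι → F) ≤ 2 * m + 2)
    (h : q ∣ Nat.card (Cfsg.POmega F Q)) : QElt (TI (HO Q)) (E Q).subtype q m :=
  qelt_of_QE (hB F (ι → F) (HO Q) q m hq2 (hypO W h2) (fun _ => rfl) h2 hqF hm hd (exists_isom_O hG h))
    fun _ hx hxq => mem_E_of hG h2 hq2 hx hxq

variable {F : Type u} [Field F] [Finite F] {q m : ℕ} [Fact q.Prime]

/-- **`PΩ_{2m+1}`** -/
theorem qelt_odd (hB : CoreB.{u, u}) (hG : Good (oddForm m F)) (hq2 : q ≠ 2) (h2 : (2 : F) ≠ 0) (hqF : (q : F) ≠ 0)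
    (hm : 2 ≤ m) (h : q ∣ Nat.card (Cfsg.POmega F (oddForm m F))) :
    QElt (TI (HO (oddForm m F))) (E (oddForm m F)).subtype q m :=
  qelt_O hB (wodd m F) hG hq2 h2 hqF hm (by rw [finrank_odd]; omega) h

/-- **`PΩ⁺_{2m}`** -/
theorem qelt_plus (hB : CoreB.{u, u}) (hG : Good (plusForm m F)) (hq2 : q ≠ 2) (h2 : (2 : F) ≠ 0) (hqF : (q : F) ≠ 0)
    (hm : 2 ≤ m) (h : q ∣ Nat.card (Cfsg.POmega F (plusForm m F))) :
    QElt (TI (HO (plusForm m F))) (E (plusForm m F)).subtype q m :=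
  qelt_O hB (wplus m F) hG hq2 h2 hqF hm (by rw [finrank_plus]; omega) h

/-- **`PΩ⁻_{2m+2}`** -/
theorem qelt_minus (hB : CoreB.{u, u}) {a b : F}
    (hab : ∀ z₁ z₂ : F, z₁ ^ 2 + a * z₁ * z₂ + b * z₂ ^ 2 = 0 → z₁ = 0 ∧ z₂ = 0) (hG : Good (minusForm m F a b))
    (hq2 : q ≠ 2) (h2 : (2 : F) ≠ 0) (hqF : (q : F) ≠ 0) (hm : 2 ≤ m)
    (h : q ∣ Nat.card (Cfsg.POmega F (minusForm m F a b))) :
    QElt (TI (HO (minusForm m F a b))) (E (minusForm m F a b)).subtype q m :=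
  qelt_O hB (wminus m F a b hab) hG hq2 h2 hqF hm (by rw [finrank_minus]) h

end Orthogonal

end Cfsg.Agent.H977.PG
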