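import Cfsg.Agent.H21.PG.Types
import Cfsg.Agent.H875.KB.Gen
import Cfsg.Agent.Nodes.WittInst

/-!
# S4884, block G, polar types: the standard Witt frames as `PG.Hyp` (helper977)

* `hyp_of_frame`, `hyp_of_amb` : a Witt frame with anisotropic `V0 = (frame)^⊥` is a `PG.Hyp`;
* `hypSp`, `hypU`, `hypO` (`hypOdd`, `hypMinus`, `hypPlus`) : the rows;
* `finrank_Sp`, `finrank_U_le`, `finrank_odd`, `finrank_minus`, `finrank_plus`;
* `exists_elt` : `q ∣ |S|`, `φ : Ĝ → S` onto: an element of order `q` of `Ĝ` with `act g ≠ 1`;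
* `exists_isom_Sp`, `exists_isom_U`, `exists_isom_O`;
* `mem_isos_of`, `mem_IU_of`, `mem_E_of` : isometries of odd order (and determinant `1` for `U`) are in `Ĝ`.
-/

set_option autoImplicit false
set_option linter.unusedSectionVars false

namespace Cfsg.Agent.H977.PG

open Cfsg Cfsg.Agent.H21.PG Cfsg.Agent.TitsThree Cfsg.Agent.TitsThree.Siegel Cfsg.Agent.TitsThree.SiegelGen
  Cfsg.Agent.TitsThree.WittFrame Cfsg.Agent.TitsThree.WBridge
open Cfsg.Agent.Nodes Cfsg.Agent.Nodes.WittRoot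

/-! ### Frames -/

section Frame

variable {F : Type*} [Field F] {V : Type*} [AddCommGroup V] [Module F V] {H : HForm F V} {n : ℕ}

/-- a Witt frame whose orthogonal space is anisotropic -/
def hyp_of_frame (Fr : Frame H (Fin n)) (h0 : ∀ v, (∀ x, H.h v (Fr.b x) = 0) → v ∈ Fr.V0)
    (ha : ∀ v ∈ Fr.V0, H.h v v = 0 → v = 0) : Hyp H n where
  u i := Fr.b (i, true)
  w i := Fr.b (i, false)
  uu i j := by rw [Fr.hb]; simp
  ww i j := by rw [Fr.hb]; simp
  uw i j := by rw [Fr.hb]; simp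
  ani v h1 h2 h3 := by
    refine ha v (h0 v ?_) h3
    rintro ⟨i, s⟩
    cases s
    · exact H.orth_symm (h2 i)
    · exact H.orth_symm (h1 i)

/-- from the ambient data of `Nodes.WittRoot` -/
def hyp_of_amb {Fr : Frame H (Fin n)} {G0 : Subgroup (V ≃ₗ[F] V)} (hA : Amb Fr G0) : Hyp H n :=
  hyp_of_frame Fr hA.V0 hA.aniso

/-- from a `WFrame`, characteristic `≠ 2` -/
def hyp_of_wframe {P : PQ H} (W : WFrame P n) (h2 : (2 : F) ≠ 0) : Hyp H n :=
  hyp_of_frame (toFrame W) (fun v h => WittU.mem_V0_of_orth W (fun i => h (i, true)) (fun i => h (i, false)))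
    (fun v hv h => by
      refine W.aniso v hv ?_
      obtain ⟨c, hc⟩ := P.ex v
      have h1 := P.rel hc
      rw [h, _root_.neg_zero] at h1
      have h3 := P.lam (-c / 2) hc
      refine P.congr h3 rfl ?_
      have e3 := H.ε_ne
      have e4 : H.σ c = -(H.ε * c) := eq_neg_of_add_eq_zero_right h1
      rw [map_div₀, map_neg, e4, map_ofNat]
      field_simp
      ring)

end Frame

/-! ### Elements of order `q` -/

section Elt

variable {F : Type*} [Field F] {V : Type*} [AddCommGroup V] [Module F V]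

/-- Cauchy -/
theorem exists_elt {Gh S : Type*} [Group Gh] [Finite Gh] [Group S] (φ : Gh →* S) (hφ : Function.Surjective φ)
    (act : Gh →* (V ≃ₗ[F] V)) (hact : Function.Injective act) {q : ℕ} [hq : Fact q.Prime] (h : q ∣ Nat.card S) :
    ∃ g : Gh, g ^ q = 1 ∧ act g ≠ 1 := by
  have h1 : q ∣ Nat.card Gh := h.trans (Subgroup.card_dvd_of_surjective φ hφ)
  obtain ⟨g, hg⟩ := exists_prime_orderOf_dvd_card' q h1
  refine ⟨g, by rw [← hg]; exact pow_orderOf_eq_one g, fun h2 => ?_⟩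
  have h3 : g = 1 := hact (by rw [h2, map_one])
  rw [h3, orderOf_one] at hg
  exact hq.out.one_lt.ne hg

/-- the same for a group of isometries -/
theorem exists_isom_of {H : HForm F V} [Finite V] {G0 : Subgroup (V ≃ₗ[F] V)} (hiso : ∀ g ∈ G0, H.IsIso g) {S : Type*}
    [Group S] (φ : G0 →* S) (hφ : Function.Surjective φ) {q : ℕ} [hq : Fact q.Prime] (h : q ∣ Nat.card S) :
    ∃ x : V ≃ₗ[F] V, Isom H x ∧ x ^ q = 1 ∧ x ≠ 1 := by
  have hf : Finite (V ≃ₗ[F] V) :=
    Finite.of_injective (fun g : V ≃ₗ[F] V => (g : V → V)) DFunLike.coe_injective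
  obtain ⟨g, h1, h2⟩ := exists_elt φ hφ G0.subtype G0.subtype_injective h
  exact ⟨g, hiso g g.2, by rw [← Subgroup.coe_pow, h1, Subgroup.coe_one], h2⟩

end Elt

/-! ### Symplectic groups -/

section Symplectic

variable (F : Type*) [Field F] (m : ℕ)

/-- `PSp` -/
def hypSp : Hyp (SpIdent.form m F) m := hyp_of_amb WittU.amb_Sp

theorem finrank_Sp : Module.finrank F (Fin m ⊕ Fin m → F) = 2 * m := by
  rw [Module.finrank_fintype_fun_eq_card, Fintype.card_sum, Fintype.card_fin, two_mul]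

variable {F m}

theorem exists_isom_Sp [Finite F] {q : ℕ} [Fact q.Prime] (h : q ∣ Nat.card (PSp m F)) :
    ∃ x : (Fin m ⊕ Fin m → F) ≃ₗ[F] (Fin m ⊕ Fin m → F), Isom (SpIdent.form m F) x ∧ x ^ q = 1 ∧ x ≠ 1 :=
  exists_isom_of (H := SpIdent.form m F) (fun _ hg => hg) (SpIdent.toPSp (m := m) (F := F)) SpIdent.toPSp_surjective h

theorem mem_isos_of {x : (Fin m ⊕ Fin m → F) ≃ₗ[F] (Fin m ⊕ Fin m → F)} (hx : Isom (SpIdent.form m F) x) :
    x ∈ SpIdent.isos (SpIdent.form m F) := hx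

end Symplectic

/-! ### Unitary groups -/

section Unitary

open Cfsg.Agent.LieClassical.HermBasic Cfsg.Agent.LieClassical.HermSiegel Cfsg.Agent.LieClassical.SUBasic
open Cfsg.Agent.TitsThree.KSideU Cfsg.Agent.TitsThree.KSideUDesc

variable {F : Type*} [Field F] [Fintype F] {q N m : ℕ} (hF : Fintype.card F = q ^ 2)

/-- `PSU` -/
noncomputable def hypU (W : WFrame (PU hF N) m) : Hyp (HU hF N) m := hyp_of_amb (WittU.amb_U hF W)

theorem finrank_U : Module.finrank F (Fin N → F) = N := by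
  rw [Module.finrank_fintype_fun_eq_card, Fintype.card_fin]

/-- `N = 2 m` or `N = 2 m + 1`: the frame exists, and `dim V ≤ 2 m + 1` -/
theorem exists_hypU (N : ℕ) : ∃ _ : WFrame (PU hF N) (N / 2), Module.finrank F (Fin N → F) ≤ 2 * (N / 2) + 1 := by
  obtain ⟨W, -⟩ := WittU.exists_wframe hF (N := N) (m := N / 2) (by omega)
  exact ⟨W, by rw [finrank_U]; omega⟩

theorem exists_isom_U {r : ℕ} [Fact r.Prime] (h : r ∣ Nat.card (PSU N F q)) :
    ∃ x : (Fin N → F) ≃ₗ[F] (Fin N → F), Isom (HU hF N) x ∧ x ^ r = 1 ∧ x ≠ 1 :=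
  exists_isom_of (H := HU hF N) (fun _ hg => WittU.isIso_IU hF hg) (toPSU F q N) toPSU_surjective h

/-- isometries of determinant `1` -/
theorem mem_IU_of {x : (Fin N → F) ≃ₗ[F] (Fin N → F)} (hx : Isom (HU hF N) x)
    (hd : LinearMap.det (x : (Fin N → F) →ₗ[F] (Fin N → F)) = 1) : x ∈ IU F q N := by
  have h1 : (LinearMap.toMatrix' (x : (Fin N → F) →ₗ[F] (Fin N → F))).det = 1 := by
    rw [LinearMap.det_toMatrix', hd]
  have h2 : ∀ v : Fin N → F, (LinearMap.toMatrix' (x : (Fin N → F) →ₗ[F] (Fin N → F))).mulVec v = x v := by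
    intro v
    rw [← Matrix.toLin'_apply, Matrix.toLin'_toMatrix']
    rfl
  let A : Matrix.SpecialLinearGroup (Fin N) F := ⟨_, h1⟩
  have h3 : A ∈ SU N F q := by
    rw [Cfsg.Agent.LieClassical.HermBasic.mem_SU_iff]
    intro v w
    change hermForm N F q ((LinearMap.toMatrix' (x : (Fin N → F) →ₗ[F] (Fin N → F))).mulVec v)
      ((LinearMap.toMatrix' (x : (Fin N → F) →ₗ[F] (Fin N → F))).mulVec w) = _
    rw [h2, h2]
    exact hx v w
  refine ⟨⟨A, h3⟩, ?_⟩
  apply LinearEquiv.ext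
  intro v
  rw [KSideU.toLin_apply]
  exact h2 v

/-- the determinant of an isometry has norm `1` -/
theorem det_norm {x : (Fin N → F) ≃ₗ[F] (Fin N → F)} (hx : Isom (HU hF N) x) :
    LinearMap.det (x : (Fin N → F) →ₗ[F] (Fin N → F)) *
      LinearMap.det (x : (Fin N → F) →ₗ[F] (Fin N → F)) ^ q = 1 := by
  set A : Matrix (Fin N) (Fin N) F := LinearMap.toMatrix' (x : (Fin N → F) →ₗ[F] (Fin N → F)) with hA
  have h1 : A.det = LinearMap.det (x : (Fin N → F) →ₗ[F] (Fin N → F)) := by rw [hA, LinearMap.det_toMatrix']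
  have h2 : A.transpose * A.map (HU hF N).σ = 1 := by
    ext i j
    have h3 := hx (Pi.single i 1) (Pi.single j 1)
    have h4 : ∀ k l, x (Pi.single l 1) k = A k l := fun k l => by
      rw [hA, LinearMap.toMatrix'_apply]
      congr 2
    have h5 : hermForm N F q (Pi.single i 1) (Pi.single j 1) = if i = j then 1 else 0 := by
      rw [UFrame.herm_single_single hF]
    rw [HU_h, HU_h, h5] at h3
    rw [Matrix.mul_apply, Matrix.one_apply, ← h3, hermForm]
    refine Finset.sum_congr rfl fun k _ => ?_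
    rw [Matrix.transpose_apply, Matrix.map_apply, HU_σ, h4, h4]
  have h3 := congrArg Matrix.det h2
  rw [Matrix.det_mul, Matrix.det_transpose, Matrix.det_one] at h3
  have h4 : (A.map (HU hF N).σ).det = (HU hF N).σ A.det := by
    rw [RingEquiv.map_det]
    rfl
  rw [h4, HU_σ, h1] at h3
  exact h3

/-- the determinant of an isometry of order `r`, if there is no `z` of order `r` and norm `1` -/
theorem det_eq_one {r : ℕ} {x : (Fin N → F) ≃ₗ[F] (Fin N → F)} (hx : Isom (HU hF N) x) (hr : x ^ r = 1)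
    (hz : ∀ z : F, z ^ r = 1 → z * z ^ q = 1 → z = 1) :
    LinearMap.det (x : (Fin N → F) →ₗ[F] (Fin N → F)) = 1 := by
  refine hz _ ?_ (det_norm hF hx)
  have h1 : ∀ k : ℕ, LinearMap.det ((x ^ k : (Fin N → F) ≃ₗ[F] (Fin N → F)) : (Fin N → F) →ₗ[F] (Fin N → F)) =
      LinearMap.det (x : (Fin N → F) →ₗ[F] (Fin N → F)) ^ k := by
    intro k
    induction k with
    | zero => rw [pow_zero, pow_zero]; exact LinearMap.det_id
    | succ k ih =>
      rw [pow_succ, pow_succ, ← ih]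
      exact LinearMap.det_comp _ _
  rw [← h1, hr]
  exact LinearMap.det_id

end Unitary

/-! ### Orthogonal groups -/

section Orthogonal

open QuadraticMap
open Cfsg.Agent.LieClassical Cfsg.Agent.LieClassical.OrthCore Cfsg.Agent.LieClassical.OrthTrans
open Cfsg.Agent.LieClassical.OrthSimple Cfsg.Agent.LieClassical.OrthFinite
open Cfsg.Agent.LieClassical.OrthForms
open Cfsg.Agent.TitsThree.KSideO Cfsg.Agent.TitsThree.StdData
open Cfsg.Agent.Nodes.WittInst

section General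

variable {ι : Type} [Fintype ι] [DecidableEq ι] {F : Type*} [Field F] {Q : QuadraticForm F (ι → F)} {m : ℕ}

/-- `PΩ` -/
def hypO (W : WFrame (PO Q) m) (h2 : (2 : F) ≠ 0) : Hyp (HO Q) m := hyp_of_amb (amb_O_of_two W h2)

theorem exists_isom_O [Finite F] (hG : Good Q) {q : ℕ} [Fact q.Prime] (h : q ∣ Nat.card (Cfsg.POmega F Q)) :
    ∃ x : (ι → F) ≃ₗ[F] (ι → F), Isom (HO Q) x ∧ x ^ q = 1 ∧ x ≠ 1 :=
  exists_isom_of (H := HO Q) (fun _ hg v w => polar_map (E_le_O hg) v w) (toPOmega hG) (toPOmega_surjective hG) h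

theorem mem_O_of (h2 : (2 : F) ≠ 0) {x : (ι → F) ≃ₗ[F] (ι → F)} (hx : Isom (HO Q) x) : x ∈ O Q := by
  rw [mem_O]
  intro v
  have h1 : polar Q (x v) (x v) = polar Q v v := hx v v
  rw [polar_self', polar_self'] at h1
  exact mul_left_cancel₀ h2 h1

/-- isometries of odd order are in `E Q` -/
theorem mem_E_of (hG : Good Q) (h2 : (2 : F) ≠ 0) {q : ℕ} [hq : Fact q.Prime] (hq2 : q ≠ 2)
    {x : (ι → F) ≃ₗ[F] (ι → F)} (hx : Isom (HO Q) x) (hxq : x ^ q = 1) : x ∈ E Q :=
  H875.KB.mem_E_of_pow hG (mem_O_of h2 hx) (hq.out.odd_of_ne_two hq2) hxq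

end General

variable (m : ℕ) (F : Type*) [Field F]

/-- `PΩ_{2m+1}` -/
def hypOdd (h2 : (2 : F) ≠ 0) : Hyp (HO (oddForm m F)) m := hypO (wodd m F) h2

/-- `PΩ⁺_{2m}` -/
def hypPlus (h2 : (2 : F) ≠ 0) : Hyp (HO (plusForm m F)) m := hypO (wplus m F) h2

/-- `PΩ⁻_{2m+2}` -/
def hypMinus (a b : F) (hab : ∀ z₁ z₂ : F, z₁ ^ 2 + a * z₁ * z₂ + b * z₂ ^ 2 = 0 → z₁ = 0 ∧ z₂ = 0)
    (h2 : (2 : F) ≠ 0) : Hyp (HO (minusForm m F a b)) m := hypO (wminus m F a b hab) h2

theorem finrank_odd : Module.finrank F (Unit ⊕ (Fin m ⊕ Fin m) → F) = 2 * m + 1 := by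
  rw [Module.finrank_fintype_fun_eq_card, Fintype.card_sum, Fintype.card_sum, Fintype.card_fin, Fintype.card_unit]
  omega

theorem finrank_plus : Module.finrank F (Fin m ⊕ Fin m → F) = 2 * m := finrank_Sp F m

theorem finrank_minus : Module.finrank F ((Fin m ⊕ Fin m) ⊕ Fin 2 → F) = 2 * m + 2 := by
  rw [Module.finrank_fintype_fun_eq_card, Fintype.card_sum, Fintype.card_sum, Fintype.card_fin, Fintype.card_fin]
  omega

end Orthogonal

end Cfsg.Agent.H977.PG
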